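import Cfsg.Agent.H972.Gen.FieldAbs

/-!
# S2187: linear elements in a group of semilinear automorphisms (helper972)

* `exists_lin` : `Γ` a relation (subgroup of `Aut G × R`, `R` cyclic) between the elements of `E` and their field parts,
  `|E| ≥ p ^ 2`: some `x ∈ E`, `x ≠ 1` has the field part `1`;
* `commutator_top` : simple nonabelian groups are perfect.
-/

set_option autoImplicit false
set_option linter.unusedSectionVars false

namespace Cfsg.Agent.H972.Gen

open Cfsg Subgroup Cfsg.Agent.H818.Gen Cfsg.Agent.H240.GenTwF Cfsg.Agent.CpAut.Fix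

theorem exists_lin {X R : Type*} [Group X] [Finite X] [Group R] [IsCyclic R] {p : ℕ} [hp : Fact p.Prime]
    {E : Subgroup X} (hE : IsElementaryAbelian p E) (hc : p ^ 2 ≤ Nat.card E) (Γ : Subgroup (X × R))
    (h : ∀ e ∈ E, ∃ φ : R, (e, φ) ∈ Γ) : ∃ x ∈ E, x ≠ 1 ∧ ((x, 1) : X × R) ∈ Γ := by
  by_contra hcon
  push Not at hcon
  have hR : ∀ a b : R, a * b = b * a := fun a b => (IsCyclic.isMulCommutative (α := R)).is_comm.comm a b
  let Z : Subgroup R := Γ.comap (MonoidHom.inr X R)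
  have hZmem : ∀ φ, φ ∈ Z ↔ ((1, φ) : X × R) ∈ Γ := fun φ => Iff.rfl
  have hZ : Z.Normal := ⟨fun a ha g => by
    have : g * a * g⁻¹ = a := by rw [hR g a]; group
    rwa [this]⟩
  have hch : ∀ e : ↥E, ∃ φ : R, ((e : X), φ) ∈ Γ := fun e => h e e.2
  choose φ hφ using hch
  have hmk : ∀ {a b : R} {e : X}, (e, a) ∈ Γ → (e, b) ∈ Γ → (QuotientGroup.mk' Z a) = QuotientGroup.mk' Z b := by
    intro a b e ha hb
    rw [QuotientGroup.mk'_apply, QuotientGroup.mk'_apply, QuotientGroup.eq, hZmem]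
    have h1 := Γ.mul_mem (Γ.inv_mem ha) hb
    have h2 : ((e, a) : X × R)⁻¹ * (e, b) = (1, a⁻¹ * b) := by
      rw [Prod.inv_mk, Prod.mk_mul_mk, inv_mul_cancel]
    rwa [h2] at h1
  let f : ↥E →* R ⧸ Z := MonoidHom.mk' (fun e => QuotientGroup.mk' Z (φ e)) fun a b => by
    rw [← map_mul]
    refine hmk (e := (a * b : ↥E)) (hφ _) ?_
    have := Γ.mul_mem (hφ a) (hφ b)
    rwa [Prod.mk_mul_mk] at this
  have hf : Function.Injective f := by
    rw [injective_iff_map_eq_one]
    intro e he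
    have h1 : φ e ∈ Z := (QuotientGroup.eq_one_iff (φ e)).1 he
    rw [hZmem] at h1
    have h2 := Γ.mul_mem (hφ e) (Γ.inv_mem h1)
    have h3 : (((e : X), φ e) : X × R) * (1, φ e)⁻¹ = ((e : X), 1) := by
      rw [Prod.inv_mk, Prod.mk_mul_mk, inv_one, mul_one, mul_inv_cancel]
    rw [h3] at h2
    by_contra hne
    exact hcon e e.2 (fun h => hne (Subtype.ext h)) h2
  have hq : IsCyclic (R ⧸ Z) := isCyclic_of_surjective (QuotientGroup.mk' Z) (QuotientGroup.mk'_surjective Z)
  have hcyc : IsCyclic ↥E := isCyclic_of_injective f hf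
  exact not_cyclic_of_sq hE hc hcyc

theorem commutator_top {G : Type*} [Group G] [hs : IsSimpleGroup G] (hc : ¬ IsMulCommutative G) : commutator G = ⊤ :=
  (quasisimple_of_simple hc).1.commutator_eq_top

end Cfsg.Agent.H972.Gen
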